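/-
Solvability of the outer automorphism group of a simple group from the action on a Sylow 2-subgroup.
-/
import Mathlib
import Cfsg.Prelude.Def_KGroupFacts
import Cfsg.Agent.S0227

set_option autoImplicit false

namespace CfsgLib.OutSolv

open Subgroup Cfsg
open scoped Pointwise

variable {G : Type*} [Group G]

/-- the automorphisms of `G` that leave `S` invariant -/
def stab (S : Subgroup G) : Subgroup (MulAut G) where
  carrier := {φ | ∀ x, x ∈ S ↔ φ x ∈ S}
  one_mem' := fun _ => Iff.rfl
  mul_mem' := fun {a b} ha hb x => (hb x).trans (ha (b x))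
  inv_mem' := fun {a} ha x => by
    have := ha (a⁻¹ x)
    rw [MulAut.apply_inv_self] at this
    exact this.symm

/-- restriction of an automorphism to an invariant subgroup -/
def res (S : Subgroup G) : stab S →* MulAut S where
  toFun φ :=
    { toFun := fun x => ⟨φ.1 x, (φ.2 x).1 x.2⟩
      invFun := fun x => ⟨φ.1⁻¹ x, ((stab S).inv_mem φ.2 x).1 x.2⟩
      left_inv := fun _ => Subtype.ext (MulAut.inv_apply_self _ _ _)
      right_inv := fun _ => Subtype.ext (MulAut.apply_inv_self _ _ _)
      map_mul' := fun _ _ => Subtype.ext (map_mul φ.1 _ _) }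
  map_one' := rfl
  map_mul' _ _ := rfl

theorem res_apply (S : Subgroup G) (φ : stab S) (x : S) : (res S φ x : G) = φ.1 x := rfl

theorem conj_mem_stab {S : Subgroup G} {g : G} (hg : g ∈ normalizer (S : Set G)) :
    MulAut.conj g ∈ stab S := fun x => mem_normalizer_iff.1 hg x

theorem surjective_out [Finite G] {p : ℕ} [Fact p.Prime] (S : Sylow p G) :
    Function.Surjective ((QuotientGroup.mk' (Inn G)).comp (stab (S : Subgroup G)).subtype) := by
  intro q
  obtain ⟨φ, rfl⟩ := QuotientGroup.mk'_surjective _ q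
  obtain ⟨g, hg⟩ := MulAction.exists_smul_eq G (φ • S) S
  refine ⟨⟨MulAut.conj g * φ, fun x => ?_⟩, ?_⟩
  · have h1 : (MulAut.conj g * φ) • (S : Subgroup G) = S := by
      conv_rhs => rw [← hg]
      rw [mul_smul]; rfl
    conv_rhs => rw [← h1]
    exact (smul_mem_pointwise_smul_iff (a := MulAut.conj g * φ) (S := (S : Subgroup G)) (x := x)).symm
  · change QuotientGroup.mk' (Inn G) (MulAut.conj g * φ) = _
    have h1 : QuotientGroup.mk' (Inn G) (MulAut.conj g) = 1 :=
      (QuotientGroup.eq_one_iff (N := Inn G) (MulAut.conj g)).2 ⟨g, rfl⟩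
    rw [map_mul, h1, one_mul]

theorem solvable_ker_res [Finite G] (hO : ∀ N : Subgroup G, N.Normal → Odd (Nat.card N) → N = ⊥)
    (S : Sylow 2 G) : Group.IsSolvable (res (S : Subgroup G)).ker := by
  have h := (Cfsg.Agent.S0227.result hO S
    ((res (S : Subgroup G)).ker.map (stab (S : Subgroup G)).subtype) fun φ => ?_).2
  · exact Core.isSolvable_of_mulEquiv (equivMapOfInjective _ _ (subtype_injective _)).symm
  · constructor
    · rintro ⟨ψ, hψ, rfl⟩ s hs
      exact congrArg (fun a : MulAut (S : Subgroup G) => (a ⟨s, hs⟩ : G)) hψ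
    · intro h
      refine ⟨⟨φ, fun x => ⟨fun hx => by rwa [h x hx], fun hx => ?_⟩⟩, ?_, rfl⟩
      · have := h _ hx
        rwa [φ.injective this] at hx
      · exact MulEquiv.ext fun x => Subtype.ext (h x x.2)

theorem odd_normal_eq_bot [Finite G] [IsSimpleGroup G] (S : Sylow 2 G) (hS1 : (S : Subgroup G) ≠ ⊥)
    (N : Subgroup G) (hN : N.Normal) (h : Odd (Nat.card N)) : N = ⊥ := by
  refine hN.eq_bot_or_eq_top.resolve_right fun e => hS1 ?_
  rw [e, card_top] at h
  obtain ⟨k, hk⟩ := IsPGroup.iff_card.1 S.isPGroup'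
  have h1 := h.of_dvd_nat (S : Subgroup G).card_subgroup_dvd_card
  rw [hk] at h1
  rcases k with _ | k
  · exact card_eq_one.1 hk
  · exact absurd h1 (by simp [Nat.odd_pow_iff])

theorem out_solvable_of_range [Finite G]
    (hO : ∀ N : Subgroup G, N.Normal → Odd (Nat.card N) → N = ⊥) (S : Sylow 2 G)
    (h : Group.IsSolvable (res (S : Subgroup G)).range) : Group.IsSolvable (Out G) := by
  have h1 := solvable_ker_res hO S
  have h2 : Group.IsSolvable (stab (S : Subgroup G)) :=
    Group.isSolvable_of_ker_le_range (res (S : Subgroup G)).ker.subtype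
      (res (S : Subgroup G)).rangeRestrict (by simp)
  exact Group.isSolvable_of_surjective (surjective_out S)

end CfsgLib.OutSolv
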